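import Mathlib
import Cfsg.Agent.Lib.Deg.Cliff
import Cfsg.Agent.Lib.Blk86.Br
import Cfsg.Agent.Lib.Block.Apps
import Cfsg.Agent.Lib.FGS83.SylCount
import Cfsg.Agent.Lib.Core.Frattini
import Cfsg.Agent.Lib.Transfer.Tate

/-!
# The sum of the squares of the degrees prime to `p` (helper14)

It is at least the corresponding sum for a subgroup of index prime to `p`; in case of equality
for a Sylow normalizer, the normalizer has a normal complement.
-/

set_option autoImplicit false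

namespace H14.Par

open Cfsg

variable {G : Type*} [Group G] [Finite G] {p : ℕ}

/-- The sum of the squares of the irreducible degrees prime to `p`. -/
noncomputable def sq (p : ℕ) (G : Type*) [Group G] [Finite G] : ℕ :=
  ∑ χ : IrrCharacter G, if p ∣ charDegree (χ : G → ℂ) then 0 else charDegree (χ : G → ℂ) ^ 2

theorem sq_eq_filter : sq p G = ∑ χ ∈ Finset.univ.filter
    (fun χ : IrrCharacter G => ¬ p ∣ charDegree (χ : G → ℂ)), charDegree (χ : G → ℂ) ^ 2 := by
  rw [Finset.sum_filter]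
  exact Finset.sum_congr rfl fun χ _ => by split_ifs <;> simp_all

theorem sq_eq_finsum : sq p G = ∑ᶠ χ : {χ : IrrCharacter G // ¬ p ∣ charDegree (χ : G → ℂ)},
    charDegree (χ.1 : G → ℂ) ^ 2 := by
  classical
  rw [finsum_eq_sum_of_fintype, sq_eq_filter]
  exact Finset.sum_subtype _ (by simp) _

theorem sq_congr {H : Type*} [Group H] [Finite H] (e : H ≃* G) : sq p H = sq p G := by
  refine (Fintype.sum_equiv ⟨fun χ => ⟨_, H6.isIrrCharacter_comp_equiv e χ.2⟩,
    fun χ => ⟨_, H6.isIrrCharacter_comp_equiv e.symm χ.2⟩,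
    fun χ => Subtype.ext (funext fun x => by simp), fun χ => Subtype.ext (funext fun x => by simp)⟩
    _ _ fun χ => ?_).symm
  have := H87.deg_comp (e : H →* G) (χ : G → ℂ)
  simp only [Equiv.coe_fn_mk]
  erw [this]

theorem sq_quot (K : Subgroup G) [K.Normal]
    (h : ∀ χ, IsIrrCharacter G χ → ¬ p ∣ charDegree χ → K ≤ H6.charKer χ) :
    sq p (G ⧸ K) = sq p G := by
  classical
  have := H87.sum_irr_quotient K (fun χ => if p ∣ charDegree χ then 0 else charDegree χ ^ 2)
  simp only [H87.deg_infl] at this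
  refine this.trans (Finset.sum_subset (Finset.filter_subset _ _) fun χ _ hχ => ?_)
  rw [if_pos]
  by_contra hd
  exact hχ (Finset.mem_filter.2 ⟨Finset.mem_univ _, h χ χ.2 hd⟩)

variable [hp : Fact p.Prime]

/-- With a normal Sylow subgroup `P`, the degrees prime to `p` are those of `G/P'`. -/
theorem not_dvd_iff (P : Sylow p G) [(P : Subgroup G).Normal] {χ : G → ℂ}
    (hχ : IsIrrCharacter G χ) :
    ¬ p ∣ charDegree χ ↔ ⁅(P : Subgroup G), (P : Subgroup G)⁆ ≤ H6.charKer χ := by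
  obtain ⟨θ, hθ, ho⟩ := H87.exists_under hχ (P : Subgroup G)
  constructor
  · intro h
    refine ho.commutator_le_charKer hχ hθ ?_
    obtain ⟨k, hk⟩ := H87.deg_pow_of_isPGroup P.isPGroup' hθ
    rcases k with _ | k
    · exact hk
    · exact absurd ((hk ▸ dvd_pow_self p k.succ_ne_zero).trans (ho.deg_dvd hχ hθ)) h
  · intro h hd
    have h1 : charDegree θ = 1 := by
      refine H87.deg_eq_one_of_commutator_le hθ fun x hx => ?_
      rw [H6.mem_charKer (H6.irr_isCharacter hθ)]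
      refine ho.apply_eq_of_mem_ker (H6.irr_isCharacter hχ) hθ ?_
      rw [← H6.mem_charKer (H6.irr_isCharacter hχ)]
      refine h ?_
      rw [← Subgroup.map_subtype_commutator]
      exact Subgroup.mem_map_of_mem _ hx
    have h2 := ho.deg_dvd_mul hχ hθ
    rw [h1, mul_one] at h2
    exact P.not_dvd_index (hd.trans h2)

theorem sq_of_normal (P : Sylow p G) [(P : Subgroup G).Normal] :
    sq p G = (⁅(P : Subgroup G), (P : Subgroup G)⁆ : Subgroup G).index := by
  classical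
  rw [← H87.sum_deg_sq_ker, sq_eq_filter]
  congr 1
  ext χ
  simp only [Finset.mem_filter, Finset.mem_univ, true_and, not_dvd_iff P χ.2]

theorem exists_over_not_dvd {H : Subgroup G} (hH : ¬ p ∣ H.index) {ψ : H → ℂ}
    (hψ : IsIrrCharacter H ψ) (h : ¬ p ∣ charDegree ψ) :
    ∃ χ, IsIrrCharacter G χ ∧ H87.Over H χ ψ ∧ ¬ p ∣ charDegree χ := by
  haveI := Fintype.ofFinite G
  obtain ⟨χ, h1, h2, h3⟩ := H87.exists_constituent_not_dvd
    (H7.isCharacter_indFun H (H6.irr_isCharacter hψ)) (d := p) (by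
      rw [H87.deg_indFun H (H6.irr_isCharacter hψ)]
      exact hp.out.not_dvd_mul hH h)
  exact ⟨χ, h1, H87.over_of_inner_indFun (H6.irr_isClassFunction h1) h2, h3⟩

omit hp in
theorem sum_deg_le {H : Subgroup G} {χ : G → ℂ} (hχ : IsCharacter G χ)
    (F : Finset (IrrCharacter H)) (hF : ∀ ψ ∈ F, H87.Over H χ (ψ : H → ℂ)) :
    ∑ ψ ∈ F, charDegree (ψ : H → ℂ) ≤ charDegree χ := by
  haveI := Fintype.ofFinite H
  obtain ⟨m, h1, -, h2⟩ := H87.char_decomp (H6.isCharacter_restrict H hχ)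
  rw [← H87.deg_res H χ, h2]
  refine le_trans (Finset.sum_le_sum fun ψ hψ => ?_)
    (Finset.sum_le_sum_of_subset (Finset.subset_univ F))
  refine Nat.le_mul_of_pos_left _ (Nat.pos_of_ne_zero fun e => H87.over_iff.1 (hF ψ hψ) ?_)
  rw [h1, e, Nat.cast_zero]

/-- The inequality, and extendibility in the case of equality. -/
theorem sq_le {H : Subgroup G} (hH : ¬ p ∣ H.index) : sq p H ≤ sq p G ∧ (sq p H = sq p G →
    ∀ ψ : H → ℂ, IsIrrCharacter H ψ → ¬ p ∣ charDegree ψ →
      ∃ χ, IsIrrCharacter G χ ∧ ∀ x : H, χ x = ψ x) := by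
  classical
  have h0 : ∀ ψ : IrrCharacter H, ∃ χ : IrrCharacter G, ¬ p ∣ charDegree (ψ : H → ℂ) →
      H87.Over H (χ : G → ℂ) (ψ : H → ℂ) ∧ ¬ p ∣ charDegree (χ : G → ℂ) := fun ψ => by
    by_cases h : p ∣ charDegree (ψ : H → ℂ)
    · exact ⟨⟨_, H6.isIrrCharacter_one⟩, fun h' => absurd h h'⟩
    · obtain ⟨χ, h1, h2⟩ := exists_over_not_dvd hH ψ.2 h
      exact ⟨⟨χ, h1⟩, fun _ => h2⟩
  choose f hf using h0
  set A := Finset.univ.filter (fun ψ : IrrCharacter H => ¬ p ∣ charDegree (ψ : H → ℂ)) with hA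
  set X := Finset.univ.filter (fun χ : IrrCharacter G => ¬ p ∣ charDegree (χ : G → ℂ)) with hX
  have hmem : ∀ ψ, ψ ∈ A ↔ ¬ p ∣ charDegree (ψ : H → ℂ) := fun ψ => by simp [hA]
  have h1 : sq p H = ∑ χ ∈ X, ∑ ψ ∈ A with f ψ = χ, charDegree (ψ : H → ℂ) ^ 2 := by
    rw [sq_eq_filter, Finset.sum_fiberwise_of_maps_to]
    intro ψ hψ
    exact Finset.mem_filter.2 ⟨Finset.mem_univ _, (hf ψ ((hmem ψ).1 hψ)).2⟩
  have h2 : ∀ χ : IrrCharacter G, ∑ ψ ∈ A with f ψ = χ, charDegree (ψ : H → ℂ) ≤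
      charDegree (χ : G → ℂ) := fun χ => sum_deg_le (H6.irr_isCharacter χ.2) _ fun ψ hψ => by
    obtain ⟨h3, rfl⟩ := Finset.mem_filter.1 hψ
    exact (hf ψ ((hmem ψ).1 h3)).1
  have h3 : ∀ χ ∈ X, ∑ ψ ∈ A with f ψ = χ, charDegree (ψ : H → ℂ) ^ 2 ≤
      charDegree (χ : G → ℂ) ^ 2 := fun χ _ =>
    (Finset.sum_sq_le_sq_sum_of_nonneg fun _ _ => Nat.zero_le _).trans (Nat.pow_le_pow_left (h2 χ) 2)
  rw [h1, sq_eq_filter]
  refine ⟨Finset.sum_le_sum h3, fun he ψ hψ hd => ?_⟩
  have h4 := (Finset.sum_eq_sum_iff_of_le h3).1 he (f ⟨ψ, hψ⟩)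
    (Finset.mem_filter.2 ⟨Finset.mem_univ _, (hf ⟨ψ, hψ⟩ hd).2⟩)
  have h5 := h2 (f ⟨ψ, hψ⟩)
  have hm : (⟨ψ, hψ⟩ : IrrCharacter H) ∈ A.filter (fun η => f η = f ⟨ψ, hψ⟩) :=
    Finset.mem_filter.2 ⟨(hmem _).2 hd, rfl⟩
  rw [← Finset.add_sum_erase _ _ hm] at h4 h5
  have h6 := Finset.sum_sq_le_sq_sum_of_nonneg
    (s := (A.filter (fun η => f η = f ⟨ψ, hψ⟩)).erase ⟨ψ, hψ⟩)
    (f := fun η : IrrCharacter H => charDegree (η : H → ℂ)) fun _ _ => Nat.zero_le _
  have h7 := H87.deg_pos hψ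
  refine ⟨_, (f ⟨ψ, hψ⟩).2, (hf ⟨ψ, hψ⟩ hd).1.eq_of_deg_le (H6.irr_isCharacter (f _).2) hψ ?_⟩
  simp only at h4 h5 h6
  generalize charDegree (f ⟨ψ, hψ⟩ : G → ℂ) = c at *
  generalize charDegree ψ = a at *
  generalize ∑ η ∈ (A.filter (fun η => f η = f ⟨ψ, hψ⟩)).erase ⟨ψ, hψ⟩,
    charDegree (η : H → ℂ) = s at *
  generalize ∑ η ∈ (A.filter (fun η => f η = f ⟨ψ, hψ⟩)).erase ⟨ψ, hψ⟩,
    charDegree (η : H → ℂ) ^ 2 = t at *
  have h8 : s = 0 := by nlinarith
  subst h8
  nlinarith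

/-- A normal subgroup on which a `p`-subgroup has no fixed points lies in the kernel of every
irreducible character of degree prime to `p`. -/
theorem le_ker_of_fpf {K Q : Subgroup G} [hK : K.Normal] (hQ : IsPGroup p Q)
    (h : ∀ k ∈ K, (∀ u ∈ Q, u * k * u⁻¹ = k) → k = 1) {χ : G → ℂ} (hχ : IsIrrCharacter G χ)
    (hd : ¬ p ∣ charDegree χ) : K ≤ H6.charKer χ := by
  classical
  by_contra hc
  haveI := Fintype.ofFinite K
  obtain ⟨M, hM⟩ := H33.exists_isPModular p
  haveI := H33.isMaximal_of hM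
  have h1 := H87.sum_normal_mul_eq_zero hχ K hc 1
  simp only [mul_one] at h1
  letI : MulAction Q K := MulAction.compHom K ((MulAut.conjNormal (H := K)).comp Q.subtype)
  have hs : ∀ (u : Q) (k : K), ((u • k : K) : G) = u * k * u⁻¹ := fun u k => rfl
  have h2 := H86.sum_eq_sum_fixed (X := K) hQ (V := H33.F M) (fun v => by
      rw [nsmul_eq_mul, ← H33.red_natCast, (H33.red_natCast_eq_zero_iff hM p).2 dvd_rfl, zero_mul])
    (fun k => H33.red M (χ k)) (fun u k => by
      rw [hs]; exact congrArg _ (H6.irr_isClassFunction hχ _ _))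
  rw [← H33.red_sum (f := fun k : K => χ k) _ fun k _ => H33.irr_mem_O M ⟨χ, hχ⟩ k, h1, H33.red_zero,
    Finset.sum_eq_single_of_mem (1 : K)
      (Finset.mem_filter.2 ⟨Finset.mem_univ _, fun u => Subtype.ext (by rw [hs]; simp)⟩)
      (fun k hk h1 => absurd (Subtype.ext (h k k.2 fun u hu => by
        have := (Finset.mem_filter.1 hk).2 ⟨u, hu⟩
        exact congrArg Subtype.val this)) h1)] at h2
  rw [OneMemClass.coe_one, ← H87.irr_deg_cast hχ, eq_comm, H33.red_natCast_eq_zero_iff hM] at h2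
  exact hd h2

omit [Finite G] hp in
theorem commutator_self_le (A : Subgroup G) : ⁅A, A⁆ ≤ A := by
  rw [← Subgroup.map_subtype_commutator]
  exact Subgroup.map_subtype_le _

omit [Finite G] hp in
theorem commutator_subgroupOf {A H : Subgroup G} (h : A ≤ H) :
    ⁅A.subgroupOf H, A.subgroupOf H⁆ = (⁅A, A⁆ : Subgroup G).subgroupOf H := by
  apply Subgroup.map_injective H.subtype_injective
  rw [Subgroup.map_commutator, Subgroup.subgroupOf_map_subtype, Subgroup.subgroupOf_map_subtype,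
    inf_eq_left.2 h, inf_eq_left.2 ((commutator_self_le A).trans h)]

/-- If the characters of degree prime to `p` of a Sylow normalizer extend, the normalizer has a
normal complement. -/
theorem complement_of_ext (P : Sylow p G) {N : Subgroup G}
    (hN : N = Subgroup.normalizer ((P : Subgroup G) : Set G))
    (h : ∀ ψ : N → ℂ, IsIrrCharacter N ψ → ¬ p ∣ charDegree ψ →
      ∃ χ, IsIrrCharacter G χ ∧ ∀ x : N, χ x = ψ x) :
    ∃ K : Subgroup G, K.Normal ∧ K ⊓ N = ⊥ ∧ K ⊔ N = ⊤ := by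
  have hPN : (P : Subgroup G) ≤ N := hN ▸ Subgroup.le_normalizer
  haveI hn : ((P.subtype hPN : Sylow p N) : Subgroup N).Normal := by
    subst hN; exact Subgroup.normal_in_normalizer
  have hPP : (⁅(P : Subgroup G), (P : Subgroup G)⁆ : Subgroup G) ≤ P :=
    commutator_self_le _
  have key : ∀ D : Subgroup G, D ≤ N → (D.subgroupOf N).Normal →
      ⁅(P : Subgroup G), (P : Subgroup G)⁆ ≤ D → ∀ x ∈ N,
        x ∈ Subgroup.normalClosure (D : Set G) → x ∈ D := by
    intro D hD _ hle x hx hc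
    by_contra hxD
    obtain ⟨ψ, h1, h2, h3⟩ := H87.exists_irr_ker_of_not_mem (D.subgroupOf N) (g := ⟨x, hx⟩) hxD
    obtain ⟨χ, h4, h5⟩ := h ψ h1 ((not_dvd_iff (P.subtype hPN) h1).2 (by
      refine le_trans ?_ h2
      rw [Sylow.coe_subtype, commutator_subgroupOf hPN]
      exact Subgroup.subgroupOf_mono N hle))
    have h6 : ∀ y : N, (y : G) ∈ H6.charKer χ ↔ y ∈ H6.charKer ψ := fun y => by
      rw [H6.mem_charKer (H6.irr_isCharacter h4), H6.mem_charKer (H6.irr_isCharacter h1), h5,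
        ← h5 1, OneMemClass.coe_one]
    haveI := H6.charKer_normal χ
    exact h3 ((h6 ⟨x, hx⟩).1 (Subgroup.normalClosure_le_normal
      (fun y hy => (h6 ⟨y, hD hy⟩).2 (h2 hy)) hc))
  set M := Subgroup.normalClosure ((P : Subgroup G) : Set G) with hM
  set L := Subgroup.normalClosure
    ((⁅(P : Subgroup G), (P : Subgroup G)⁆ : Subgroup G) : Set G) with hL
  have hPM : (P : Subgroup G) ≤ M := Subgroup.le_normalClosure
  have h1 := key P hPN hn hPP
  have h2 := key _ (hPP.trans hPN) (by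
    rw [← commutator_subgroupOf hPN]
    exact Subgroup.commutator_normal _ _ (h₁ := hn) (h₂ := hn)) le_rfl
  have hf := QuotientGroup.mk'_surjective (L.subgroupOf M)
  have h3 : HasNormalPComplement p (M ⧸ L.subgroupOf M) := by
    refine H4.hasNormalPComplement_of_normalizer_le_centralizer
      ((P.subtype hPM).mapSurjective hf) ?_
    rw [H83.normalizer_mapSurjective]
    rintro _ ⟨m, hm, rfl⟩ _ ⟨u, hu, rfl⟩
    have hm' : (m : G) ∈ (P : Subgroup G) := by
      refine h1 _ ?_ m.2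
      rw [hN, Subgroup.mem_normalizer_iff]
      intro y
      refine ⟨fun hy => ((Subgroup.mem_normalizer_iff.1 hm) ⟨y, hPM hy⟩).1 hy, fun hy => ?_⟩
      have hy' : y ∈ M := by
        have := mul_mem (mul_mem (inv_mem m.2) (hPM hy)) m.2
        convert this using 1
        group
      exact ((Subgroup.mem_normalizer_iff.1 hm) ⟨y, hy'⟩).2 hy
    rw [← map_mul, ← map_mul, QuotientGroup.mk'_apply, QuotientGroup.mk'_apply, QuotientGroup.eq,
      Subgroup.mem_subgroupOf]
    refine Subgroup.le_normalClosure ?_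
    have := Subgroup.commutator_mem_commutator (inv_mem hm') (inv_mem (show (u : G) ∈ P from hu))
    convert this using 1
    simp [commutatorElement_def, mul_assoc]
  haveI := H4.pResidual_normal p M
  have h4 : HasNormalPComplement p (pResidual p M) := by
    refine H4.tate (P.subtype hPM) _ fun x hx => ?_
    have h5 : QuotientGroup.mk' (L.subgroupOf M) x ∈ pResidual p (M ⧸ L.subgroupOf M) ⊓
        (((P.subtype hPM).mapSurjective hf : Sylow p _) : Subgroup _) :=
      ⟨H4.map_pResidual_le _ ⟨x, hx.1, rfl⟩, x, hx.2, rfl⟩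
    rw [(H4.hasNormalPComplement_iff_inf_eq_bot _).1 h3, Subgroup.mem_bot, QuotientGroup.mk'_apply,
      QuotientGroup.eq_one_iff] at h5
    have h6 : x ∈ (⁅(P : Subgroup G), (P : Subgroup G)⁆ : Subgroup G).subgroupOf M :=
      h2 _ (hPN hx.2) h5
    rw [← commutator_subgroupOf hPM, ← Subgroup.map_subtype_commutator] at h6
    exact Subgroup.map_mono (H1.commutator_le_frattini (P.subtype hPM).isPGroup') h6
  have h5 := H4.hasNormalPComplement_iff_not_dvd.1
    ((H4.hasNormalPComplement_iff_of_pResidual_le le_rfl).2 h4)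
  haveI := H4.pResidual_characteristic p M
  refine ⟨(pResidual p M).map M.subtype, inferInstance, ?_, ?_⟩
  · rw [eq_bot_iff, ← H4.inf_eq_bot_of_not_dvd_card (N := (pResidual p M).map M.subtype)
      (fun hd => h5 (hd.trans (Subgroup.card_map_dvd _ _))) P.isPGroup']
    exact fun x hx => ⟨hx.1, h1 x hx.2 (Subgroup.map_subtype_le _ hx.1)⟩
  · rw [eq_top_iff, ← Sylow.normalizer_sup_eq_top' P hPM]
    refine sup_le (le_sup_of_le_right hN.ge) fun x hx => ?_
    obtain ⟨r, hr, y, hy, e⟩ := H4.exists_pResidual_mul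
      (hp.out.coprime_iff_not_dvd.2 (P.subtype hPM).not_dvd_index).symm (⟨x, hx⟩ : M)
    have : x = r * y := (congrArg Subtype.val e).symm
    rw [this]
    exact mul_mem (Subgroup.mem_sup_left ⟨r, hr, rfl⟩) (Subgroup.mem_sup_right (hPN hy))

/-- With a normal complement to a Sylow normalizer, the two sums agree. -/
theorem sq_eq_of_complement (P : Sylow p G) {N K : Subgroup G} [hK : K.Normal]
    (hN : N = Subgroup.normalizer ((P : Subgroup G) : Set G)) (h1 : K ⊓ N = ⊥) (h2 : K ⊔ N = ⊤) :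
    sq p N = sq p G := by
  rw [← sq_quot K fun χ hχ hd => le_ker_of_fpf P.isPGroup' (fun k hk hc => ?_) hχ hd]
  · refine sq_congr (MulEquiv.ofBijective ((QuotientGroup.mk' K).comp N.subtype) ⟨?_, fun y => ?_⟩)
    · rw [injective_iff_map_eq_one]
      intro x hx
      exact Subtype.ext (Subgroup.mem_bot.1 (h1 ▸ Subgroup.mem_inf.2
        ⟨(QuotientGroup.eq_one_iff _).1 hx, x.2⟩))
    · obtain ⟨y, rfl⟩ := QuotientGroup.mk'_surjective K y
      have : y ∈ ((K ⊔ N : Subgroup G) : Set G) := h2 ▸ Subgroup.mem_top y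
      rw [Subgroup.normal_mul] at this
      obtain ⟨k, hk, n, hn, rfl⟩ := this
      refine ⟨⟨n, hn⟩, ?_⟩
      show QuotientGroup.mk' K n = QuotientGroup.mk' K (k * n)
      rw [map_mul, QuotientGroup.mk'_apply K k, (QuotientGroup.eq_one_iff k).2 hk, one_mul]
  · refine Subgroup.mem_bot.1 (h1 ▸ Subgroup.mem_inf.2 ⟨hk, hN ▸ Subgroup.centralizer_le_normalizer _
      fun u hu => ?_⟩)
    exact mul_inv_eq_iff_eq_mul.1 (hc u hu)

theorem card_normalizer_eq (P : Sylow p G) {N : Subgroup G}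
    (hN : N = Subgroup.normalizer ((P : Subgroup G) : Set G)) :
    Nat.card N = Nat.card (commutator P) * sq p N := by
  have hPN : (P : Subgroup G) ≤ N := hN ▸ Subgroup.le_normalizer
  haveI hn : ((P.subtype hPN : Sylow p N) : Subgroup N).Normal := by
    subst hN; exact Subgroup.normal_in_normalizer
  rw [sq_of_normal (P.subtype hPN), ← Subgroup.card_mul_index
    ⁅((P.subtype hPN : Sylow p N) : Subgroup N), ((P.subtype hPN : Sylow p N) : Subgroup N)⁆]
  congr 1
  rw [Sylow.coe_subtype, commutator_subgroupOf hPN, Nat.card_congr (Subgroup.subgroupOfEquivOfLe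
    ((commutator_self_le _).trans hPN)).toEquiv,
    ← Subgroup.map_subtype_commutator, Subgroup.card_map_of_injective (Subgroup.subtype_injective _)]

end H14.Par
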