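import Mathlib
import Cfsg.Agent.Lib.Block.GalFix
import Cfsg.Agent.Lib.H85.Prin2
import Cfsg.Agent.Lib.Blk88.CanP
import Cfsg.Agent.Lib.Transfer.NormalComplement

/-!
# Parity arguments for odd-degree characters of the principal 2-block (helper14)

The number of odd-degree characters in the principal 2-block of a group of even order is even, so
any 2-group permuting them fixes an even number of them.
-/

set_option autoImplicit false

namespace H14.Par

open Cfsg

section Fix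

variable {α : Type*}

/-- Fixed points of a map of 2-power order on an invariant finite set. -/
theorem even_fix_fun {S : Set α} (hS : S.Finite) (f : α → α) (hf : ∀ a ∈ S, f a ∈ S) {e : ℕ}
    (he : ∀ a ∈ S, f^[2 ^ e] a = a) (h : Even S.ncard) : Even {a ∈ S | f a = a}.ncard := by
  classical
  haveI := hS.fintype
  let F : Function.End S := fun a => ⟨f a, hf a a.2⟩
  have hF : ∀ (n : ℕ) (a : S), (((F ^ n) a : S) : α) = f^[n] a := by
    intro n
    induction n with
    | zero => intro a; rfl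
    | succ n ih =>
      intro a
      rw [pow_succ', Function.iterate_succ_apply', ← ih]
      rfl
  have hf1 : F ^ 2 ^ e = 1 := by
    funext a
    exact Subtype.ext ((hF _ a).trans (he a a.2))
  have h1 := Equiv.Perm.card_fixedPoints_modEq hf1
  have h2 : {a ∈ S | f a = a}.ncard = Fintype.card (Function.fixedPoints F) := by
    rw [← Nat.card_eq_fintype_card, ← Nat.card_coe_set_eq]
    exact Nat.card_congr ⟨fun a => ⟨⟨a.1, a.2.1⟩, Subtype.ext a.2.2⟩,
      fun a => ⟨a.1.1, a.1.2, congrArg Subtype.val a.2⟩, fun _ => rfl, fun _ => rfl⟩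
  rw [h2, Nat.even_iff, ← h1, ← Nat.even_iff, ← Nat.card_eq_fintype_card, Nat.card_coe_set_eq]
  exact h

/-- Fixed points of a 2-group acting on the right on an invariant finite set. -/
theorem even_fix_grp {Q : Type*} [Group Q] (hQ : IsPGroup 2 Q) {S : Set α} (hS : S.Finite)
    (f : Q → α → α) (h1 : ∀ a, f 1 a = a) (hm : ∀ x y a, f (x * y) a = f y (f x a))
    (hf : ∀ x, ∀ a ∈ S, f x a ∈ S) (h : Even S.ncard) :
    Even {a ∈ S | ∀ x, f x a = a}.ncard := by
  haveI : Finite S := hS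
  letI : MulAction Q S :=
    { smul := fun x a => ⟨f x⁻¹ a, hf _ a a.2⟩
      one_smul := fun a => Subtype.ext (by
        show f 1⁻¹ a = a
        rw [inv_one, h1])
      mul_smul := fun x y a => Subtype.ext (by
        show f (x * y)⁻¹ a = f x⁻¹ (f y⁻¹ a)
        rw [mul_inv_rev, hm]) }
  have h2 := hQ.card_modEq_card_fixedPoints S
  have h3 : {a ∈ S | ∀ x, f x a = a}.ncard = Nat.card (MulAction.fixedPoints Q S) := by
    rw [← Nat.card_coe_set_eq]
    refine Nat.card_congr ⟨fun a => ⟨⟨a.1, a.2.1⟩, fun x => Subtype.ext (a.2.2 _)⟩,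
      fun a => ⟨a.1.1, a.1.2, fun x => ?_⟩, fun _ => rfl, fun _ => rfl⟩
    have := congrArg Subtype.val (a.2 x⁻¹)
    change f x⁻¹⁻¹ _ = _ at this
    rwa [inv_inv] at this
  rw [h3, Nat.even_iff, ← h2, ← Nat.even_iff, Nat.card_coe_set_eq]
  exact h

/-- A set of even size containing `a` has another member. -/
theorem exists_ne_of_even {S : Set α} (h : Even S.ncard) {a : α} (ha : a ∈ S) (hS : S.Finite) :
    ∃ b ∈ S, b ≠ a := by
  by_contra hc
  push Not at hc
  have : S = {a} := Set.eq_singleton_iff_unique_mem.2 ⟨ha, hc⟩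
  rw [this, Set.ncard_singleton] at h
  exact Nat.not_even_one h

end Fix

variable {G : Type*} [Group G] [Finite G] {M : Ideal AlgInt}

/-- The odd-degree characters of the principal block. -/
def OddB (M : Ideal AlgInt) (G : Type*) [Group G] : Set (IrrCharacter G) :=
  {χ | χ ∈ principalBlock M G ∧ Odd (charDegree (χ : G → ℂ))}

theorem one_mem_oddB (hM : IsPModular 2 M) : H33.oneIrr G ∈ OddB M G :=
  ⟨by have := H33.isMaximal_of hM; exact H33.oneIrr_mem_principalBlock, by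
    show Odd (charDegree fun _ : G => (1 : ℂ))
    rw [H87.deg_one]; exact odd_one⟩

theorem even_oddB (hM : IsPModular 2 M) (hev : Even (Nat.card G)) : Even (OddB M G).ncard := by
  classical
  have := H33.isMaximal_of hM
  have := Fintype.ofFinite G
  have hB : IsPBlock M (principalBlock M G) := H33.isPBlock_principalBlock
  have h4 : ((∑ χ ∈ Finset.univ.filter (· ∈ principalBlock M G),
      charDegree (χ : G → ℂ) ^ 2 : ℕ) : ℂ) =
      Nat.card G * blockCoeff (principalBlock M G) 1 := by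
    rw [H33.blockCoeff_eq_sum, ← mul_assoc, mul_inv_cancel₀ (by exact_mod_cast Nat.card_pos.ne'),
      one_mul]
    push_cast
    refine Finset.sum_congr rfl fun χ _ => ?_
    rw [H33.irr_one_eq_charDegree, map_natCast, pow_two]
  have h5 := congrArg (H33.red M) h4
  rw [H33.red_mul (natCast_mem _ _) (H33.blockCoeff_mem_O hB 1),
    (H33.red_natCast_eq_zero_iff hM _).2 hev.two_dvd, zero_mul,
    H33.red_natCast_eq_zero_iff hM, ← even_iff_two_dvd,
    Finset.even_sum_iff_even_card_odd] at h5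
  rw [← Set.ncard_coe_finset] at h5
  convert h5 using 2
  ext χ
  simp [OddB, Nat.odd_pow_iff]

theorem pw_mem_oddB (hM : IsPModular 2 M) {k : ℕ} (hk : k.Coprime (Nat.card G))
    {χ : IrrCharacter G} (h : χ ∈ OddB M G) : H34.pw hk χ ∈ OddB M G := by
  refine ⟨(H34.pw_mem_prin hM hk).2 h.1, ?_⟩
  have : charDegree (H34.pw hk χ : G → ℂ) = charDegree (χ : G → ℂ) :=
    H87.deg_congr (by rw [H34.pw_apply, one_pow])
  rw [this]; exact h.2

theorem cjI_mem_oddB (hM : IsPModular 2 M) {N : Subgroup G} [N.Normal] (g : G)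
    {θ : IrrCharacter N} (h : θ ∈ OddB M N) : H35.cjI g θ ∈ OddB M N := by
  refine ⟨H85.cjI_mem_prin hM g h.1, ?_⟩
  have : charDegree (H35.cjI g θ : N → ℂ) = charDegree (θ : N → ℂ) :=
    H87.deg_congr (by
      rw [H35.cjI_apply]
      exact congrArg _ (Subtype.ext (by simp)))
  rw [this]; exact h.2

theorem pow_card_sub_one (g : G) : g ^ (Nat.card G - 1) = g⁻¹ := by
  rw [eq_inv_iff_mul_eq_one, ← pow_succ, Nat.sub_add_cancel Nat.card_pos, pow_card_eq_one']

theorem coprime_card_sub_one : (Nat.card G - 1).Coprime (Nat.card G) := by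
  obtain ⟨m, hm⟩ : ∃ m, Nat.card G = m + 1 := ⟨_, (Nat.sub_add_cancel Nat.card_pos).symm⟩
  rw [hm, Nat.add_sub_cancel]
  simp

/-- For a normal subgroup `N` of even order, a 2-subgroup `Q` and a power map of 2-power order, an
even number of odd-degree characters of the principal block of `N` are real, `Q`-invariant and
fixed by the power map. -/
theorem even_fixed (hM : IsPModular 2 M) (N : Subgroup G) [hN : N.Normal] (hev : Even (Nat.card N))
    {Q : Subgroup G} (hQ : IsPGroup 2 Q) {k e : ℕ} (hk : k.Coprime (Nat.card N))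
    (he : ∀ n : N, n ^ k ^ 2 ^ e = n) :
    Even {θ ∈ OddB M N | (∀ n, (θ : N → ℂ) (n ^ k) = (θ : N → ℂ) n) ∧
      (∀ n, (θ : N → ℂ) n⁻¹ = (θ : N → ℂ) n) ∧ ∀ x ∈ Q, H35.cjI x θ = θ}.ncard := by
  have h1 := even_fix_fun (Set.toFinite _) (H34.pw hk) (fun χ h => pw_mem_oddB hM hk h) (e := e)
    (fun χ _ => Subtype.ext (funext fun n => by rw [H34.pw_iterate, he])) (even_oddB hM hev)
  have h2 := even_fix_fun (S := {χ ∈ OddB M N | H34.pw hk χ = χ}) (Set.toFinite _)
    (H34.pw (coprime_card_sub_one (G := N)))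
    (fun χ h => ⟨pw_mem_oddB hM _ h.1, Subtype.ext (funext fun n => by
      rw [H34.pw_apply, H34.pw_apply, H34.pw_apply, ← pow_mul, mul_comm, pow_mul,
        (H34.pw_eq_iff hk χ).1 h.2])⟩) (e := 1)
    (fun χ _ => Subtype.ext (funext fun n => by
      rw [H34.pw_iterate, pow_one, pow_two, pow_mul, pow_card_sub_one, pow_card_sub_one,
        inv_inv])) h1
  have h3 := even_fix_grp hQ (S := {χ ∈ {χ ∈ OddB M N | H34.pw hk χ = χ} |
      H34.pw (coprime_card_sub_one (G := N)) χ = χ}) (Set.toFinite _) (fun (x : Q) θ => H35.cjI (x : G) θ)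
    (fun θ => H35.cjI_one θ) (fun x y θ => H35.cjI_mul _ _ θ)
    (fun x θ h => ⟨⟨cjI_mem_oddB hM _ h.1.1, Subtype.ext (funext fun n => by
      rw [H34.pw_apply, H35.cjI_apply, H35.cjI_apply, ← (H34.pw_eq_iff hk θ).1 h.1.2 ⟨_ * n * _, _⟩]
      exact congrArg _ (Subtype.ext (by simp [conj_pow])))⟩, Subtype.ext (funext fun n => by
      rw [H34.pw_apply, H35.cjI_apply, H35.cjI_apply, ← (H34.pw_eq_iff _ θ).1 h.2 ⟨_ * n * _, _⟩]
      exact congrArg _ (Subtype.ext (by simp [conj_pow])))⟩) h2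
  convert h3 using 2
  ext θ
  simp only [Set.mem_ofPred_eq, H34.pw_eq_iff, pow_card_sub_one, Subtype.forall, and_assoc]

theorem not_dvd_orderOf_hom {R : Type*} [Group R] [Finite R] {p : ℕ} [hp : Fact p.Prime]
    (hR : pResidual p R = ⊤) (μ : R →* ℂˣ) : ¬ p ∣ orderOf μ := by
  intro hd
  have hk : pResidual p R ≤ (μ ^ ordCompl[p] (Nat.card R)).ker := H4.pResidual_le_iff.2 fun g hg => by
    rw [MonoidHom.mem_ker, MonoidHom.pow_apply, ← map_pow, orderOf_dvd_iff_pow_eq_one.1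
      (Nat.dvd_ordCompl_of_dvd_not_dvd (orderOf_dvd_natCard g)
        ((Nat.Prime.coprime_iff_not_dvd hp.out).1 hg.symm)), map_one]
  refine Nat.not_dvd_ordCompl hp.out (Nat.card_pos (α := R)).ne' (hd.trans ?_)
  rw [H31.orderOf_hom_dvd_iff]
  intro g
  exact hk (hR ▸ Subgroup.mem_top g)

/-- A real linear character of a group without a subgroup of index 2 is principal. -/
theorem eq_one_of_real_linear {R : Type*} [Group R] [Finite R] (hR : pResidual 2 R = ⊤)
    {θ : IrrCharacter R} (h1 : charDegree (θ : R → ℂ) = 1)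
    (hr : ∀ n, (θ : R → ℂ) n⁻¹ = (θ : R → ℂ) n) : θ = H33.oneIrr R := by
  have hc := H6.irr_isCharacter θ.2
  obtain ⟨μ, hμ⟩ := H6.exists_hom_of_char_one_eq_one hc ((H87.deg_eq_one_iff hc).1 h1)
  have h2 : orderOf μ ∣ 2 := by
    rw [H31.orderOf_hom_dvd_iff]
    intro g
    have := hr g
    rw [hμ] at this
    have h3 : μ g⁻¹ = μ g := Units.ext this
    rw [pow_two]
    nth_rewrite 1 [← h3]
    rw [← map_mul, inv_mul_cancel, map_one]
  have h4 : orderOf μ = 1 := by
    rcases (Nat.dvd_prime Nat.prime_two).1 h2 with h | h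
    · exact h
    · exact absurd (h ▸ dvd_rfl) (not_dvd_orderOf_hom hR μ)
  rw [orderOf_eq_one_iff] at h4
  refine Subtype.ext ?_
  rw [hμ, h4]
  rfl

/-- A `G`-invariant character of `p'`-degree of `O^p(G)` has an extension fixed by every power map
fixing it. -/
theorem exists_ext {p : ℕ} [hp : Fact p.Prime] (hM : IsPModular p M) (P : Sylow p G)
    (N : Subgroup G) [hN : N.Normal] (hNres : N = pResidual p G) {θ : IrrCharacter N}
    (hB : θ ∈ principalBlock M N) (h2 : ¬ p ∣ charDegree (θ : N → ℂ))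
    (h3 : ∀ x ∈ (P : Subgroup G), H35.cjI x θ = θ) :
    ∃ χ : IrrCharacter G, χ ∈ principalBlock M G ∧ (∀ n : N, (χ : G → ℂ) n = (θ : N → ℂ) n) ∧
      ∀ k : ℕ, k.Coprime (Nat.card G) → (∀ n, (θ : N → ℂ) (n ^ k) = (θ : N → ℂ) n) →
        ∀ g, (χ : G → ℂ) (g ^ k) = (χ : G → ℂ) g := by
  classical
  haveI := hM.2.1
  haveI := Fintype.ofFinite G
  haveI := Fintype.ofFinite N
  obtain ⟨a, ha⟩ : ∃ a, N.index = p ^ a := hNres ▸ H4.index_pResidual_eq_pow p
  have hdec : ∀ g : G, ∃ r ∈ N, ∃ x ∈ (P : Subgroup G), r * x = g := fun g =>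
    hNres ▸ H4.exists_pResidual_mul (hp.out.coprime_iff_not_dvd.2 P.not_dvd_index).symm g
  have hreg : ∀ g : G, ¬ p ∣ orderOf g → g ∈ N := fun g hg =>
    hNres ▸ H4.mem_pResidual_of_coprime (hp.out.coprime_iff_not_dvd.2 hg).symm
  have hres : pResidual p N = ⊤ := by subst hNres; exact H4.pResidual_pResidual p G
  have hinv : ∀ (g : G) (n : N),
      (θ : N → ℂ) ⟨g * n * g⁻¹, hN.conj_mem (n : G) n.2 g⟩ = (θ : N → ℂ) n := by
    intro g n
    obtain ⟨r, hr, x, hx, rfl⟩ := hdec g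
    refine Eq.trans ?_ ((H6.irr_isClassFunction θ.2 ⟨x * n * x⁻¹, hN.conj_mem n n.2 x⟩ ⟨r, hr⟩).trans
      (congrFun (congrArg Subtype.val (h3 x hx)) n))
    exact congrArg _ (Subtype.ext (by simp [mul_assoc]))
  have hdo : ¬ p ∣ detOrder (θ : N → ℂ) := by
    rw [H31.detOrder_eq]; exact not_dvd_orderOf_hom hres _
  obtain ⟨χ, ⟨h5, h6, h7⟩, h8⟩ := H31.exists_canonical_ext N θ.2 hinv (H87.deg_cast' θ).symm (by
    rw [ha]
    exact Nat.Coprime.pow_left _ (hp.out.coprime_iff_not_dvd.2 (hp.out.not_dvd_mul hdo h2)))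
  refine ⟨⟨χ, h5⟩, (H85.mem_prin_iff_of_over hM hreg ⟨χ, h5⟩ θ (by
      rw [H31.inner_res_of_eq_mul N θ.2 (e := 1) fun n => by rw [one_mul]; exact h6 n]
      exact one_ne_zero)).2 hB, h6, fun k hcop h4 g => ?_⟩
  obtain ⟨σ, hσ⟩ := H8.exists_ringEquiv_pow (Nat.card_pos (α := G)) hcop
  have hσG : ∀ χ : G → ℂ, IsCharacter G χ → ∀ g, σ (χ g) = χ (g ^ k) := fun χ hχ g =>
    H8.IsCharacter_map_eq_pow hχ (σ : ℂ →+* ℂ) Nat.card_pos hσ pow_card_eq_one'
  have hσN : ∀ θ : N → ℂ, IsCharacter N θ → ∀ n, σ (θ n) = θ (n ^ k) := fun θ hθ n =>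
    H8.IsCharacter_map_eq_pow hθ (σ : ℂ →+* ℂ) Nat.card_pos hσ
      (Subtype.ext (pow_card_eq_one' (x := (n : G))))
  show χ (g ^ k) = χ g
  rw [← hσG χ (H6.irr_isCharacter h5)]
  refine congrFun (h8 (fun g => σ (χ g)) (H8.isIrrCharacter_ringEquiv_comp h5 σ) (fun n => ?_) ?_) g
  · show σ (χ n) = _
    rw [h6, hσN _ (H6.irr_isCharacter θ.2), h4]
  · rw [ha]
    refine Nat.Coprime.pow_left _ (hp.out.coprime_iff_not_dvd.2 fun hd => hdo ?_)
    rw [← h7]
    refine hd.trans ?_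
    rw [H31.detOrder_eq, H31.detOrder_eq, H31.orderOf_hom_dvd_iff]
    intro g
    have h := (H31.orderOf_hom_dvd_iff (H31.detHom χ) _).1 dvd_rfl g
    ext
    have e := H88.detHom_gal (H6.irr_isCharacter h5) (σ : ℂ →+* ℂ) g
    rw [Units.val_pow_eq_pow_val]
    erw [e]
    rw [← map_pow, ← Units.val_pow_eq_pow_val, h, Units.val_one, map_one]

/-- A group without a normal 2-complement has a nonlinear real character of odd degree in the
principal 2-block fixed by a given power map of 2-power order. -/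
theorem exists_nonlinear (hM : IsPModular 2 M) (hG : ¬ HasNormalPComplement 2 G) {k e : ℕ}
    (hk : k.Coprime (Nat.card G)) (he : ∀ g : G, g ^ k ^ 2 ^ e = g) :
    ∃ χ ∈ OddB M G, charDegree (χ : G → ℂ) ≠ 1 ∧ (∀ g, (χ : G → ℂ) (g ^ k) = (χ : G → ℂ) g) ∧
      ∀ g, (χ : G → ℂ) g⁻¹ = (χ : G → ℂ) g := by
  obtain ⟨P⟩ := (inferInstance : Nonempty (Sylow 2 G))
  haveI := H4.pResidual_normal 2 G
  rw [H4.hasNormalPComplement_iff_not_dvd, not_not] at hG
  have hev := even_fixed hM (pResidual 2 G) (even_iff_two_dvd.2 hG) P.isPGroup'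
    (H34.coprime_sub hk _) (e := e) (fun n => Subtype.ext (he n))
  obtain ⟨θ, ⟨h1, h2, h3, h4⟩, hne⟩ := exists_ne_of_even hev (a := H33.oneIrr _)
    ⟨one_mem_oddB hM, fun _ => rfl, fun _ => rfl, fun _ _ => rfl⟩ (Set.toFinite _)
  obtain ⟨χ, hB, hr, hf⟩ := exists_ext hM P _ rfl h1.1
    (fun h => Nat.not_even_iff_odd.2 h1.2 (even_iff_two_dvd.2 h)) h4
  have hd : charDegree (χ : G → ℂ) = charDegree (θ : pResidual 2 G → ℂ) := H87.deg_congr (hr 1)
  refine ⟨χ, ⟨hB, hd ▸ h1.2⟩, fun h => hne ?_, hf k hk h2, fun g => ?_⟩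
  · exact eq_one_of_real_linear (H4.pResidual_pResidual 2 G) (hd ▸ h) h3
  · rw [← pow_card_sub_one]
    refine hf _ coprime_card_sub_one (fun n => ?_) g
    rw [← h3 n]
    exact congrArg _ (Subtype.ext (pow_card_sub_one (n : G)))

/-- The power map cubing 2-elements and fixing elements of odd order. -/
theorem cube_data {k : ℕ} (hk₁ : ∀ g : G, (∃ j : ℕ, orderOf g = 2 ^ j) → g ^ k = g ^ 3)
    (hk₂ : ∀ g : G, Odd (orderOf g) → g ^ k = g) :
    k.Coprime (Nat.card G) ∧ ∃ e, ∀ g : G, g ^ k ^ 2 ^ e = g := by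
  constructor
  · apply Nat.coprime_of_dvd
    intro q hq hqk hqG
    have : Fact q.Prime := ⟨hq⟩
    obtain ⟨g, hg⟩ := exists_prime_orderOf_dvd_card' q hqG
    have h1 : g ^ k = 1 := orderOf_dvd_iff_pow_eq_one.1 (hg ▸ hqk)
    rcases hq.eq_two_or_odd' with rfl | hodd
    · have h2 := hk₁ g ⟨1, by simpa using hg⟩
      rw [h1, eq_comm, ← orderOf_dvd_iff_pow_eq_one, hg] at h2
      omega
    · have h2 := hk₂ g (hg ▸ hodd)
      rw [h1] at h2
      rw [← h2, orderOf_one] at hg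
      exact hq.one_lt.ne hg
  set a := (Nat.card G).factorization 2 with ha
  refine ⟨a, fun g => ?_⟩
  have h1 : ∀ n : ℕ, ∀ x : G, H35.IsPElt 2 x → x ^ k ^ n = x ^ 3 ^ n := by
    intro n
    induction n with
    | zero => intro x _; simp
    | succ n ih =>
      intro x hx
      rw [pow_succ, pow_mul, ih x hx, hk₁ _ (hx.pow _), ← pow_mul, ← pow_succ]
  have h2 : ∀ n : ℕ, ∀ x : G, ¬ 2 ∣ orderOf x → x ^ k ^ n = x := by
    intro n
    induction n with
    | zero => intro x _; simp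
    | succ n ih =>
      intro x hx
      rw [pow_succ, pow_mul, ih x hx, hk₂ _ (Nat.not_even_iff_odd.1 (fun h => hx h.two_dvd))]
  conv_lhs => rw [← H35.pPart_mul_pReg 2 g]
  rw [(H35.commute_pPart_pReg 2 g).mul_pow, h1 _ _ (H35.isPElt_pPart 2 g),
    h2 _ _ (H35.not_dvd_orderOf_pReg 2 g)]
  conv_rhs => rw [← H35.pPart_mul_pReg 2 g]
  congr 1
  obtain ⟨j, hj⟩ := H35.isPElt_pPart 2 g
  have hja : j ≤ a := by
    have := orderOf_dvd_natCard (H35.pPart 2 g)
    rw [hj] at this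
    exact (Nat.Prime.pow_dvd_iff_le_factorization Nat.prime_two Nat.card_pos.ne').1 this
  have h3 : 3 ^ 2 ^ a ≡ 1 [MOD 2 ^ (a + 1)] := by
    have := Nat.ModEq.pow_totient (x := 3) (n := 2 ^ (a + 1))
      (Nat.Coprime.pow_right _ (by norm_num))
    rwa [Nat.totient_prime_pow Nat.prime_two (Nat.succ_pos a), Nat.succ_sub_one,
      show 2 - 1 = 1 from rfl, mul_one] at this
  conv_rhs => rw [← pow_one (H35.pPart 2 g)]
  rw [pow_eq_pow_iff_modEq, hj]
  exact h3.of_dvd (pow_dvd_pow 2 (by omega))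

end H14.Par
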