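import Mathlib
import Cfsg.Agent.Lib.Block.Kernel
import Cfsg.Agent.Lib.Deg.Basic
import Cfsg.Agent.Lib.Char.Burnside
import Cfsg.Agent.Lib.Transfer.NormalComplement

/-!
# Zeros of characters of the principal block (helper14)

A character of the principal `p`-block does not vanish on a class of size prime to `p`.
-/

set_option autoImplicit false

namespace H14.Par

open Cfsg
open scoped commutatorElement

variable {G : Type*} [Group G] [Finite G] {p : ℕ} [hp : Fact p.Prime] {M : Ideal AlgInt}

theorem dvd_index_of_eq_zero (hM : IsPModular p M) {χ : IrrCharacter G}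
    (hχ : χ ∈ principalBlock M G) {g : G} (h : (χ : G → ℂ) g = 0) :
    p ∣ (Subgroup.centralizer ({g} : Set G)).index := by
  have := H33.isMaximal_of hM
  have h1 := (H33.mem_principalBlock_iff χ).1 hχ g
  rw [← H33.red_natCast_eq_zero_iff hM, H33.red_natCast, ← h1]
  have : centralChar (χ : G → ℂ) g = ((0 : ℕ) : ℂ) := by
    show _ * (χ : G → ℂ) g / _ = _
    rw [h]; simp
  rw [this, H33.red_natCast, Nat.cast_zero]

omit hp in
/-- Burnside: a nonlinear irreducible character has a zero. -/
theorem exists_zero {χ : G → ℂ} (hχ : IsIrrCharacter G χ) (h : charDegree χ ≠ 1) :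
    ∃ g, χ g = 0 := by
  have h0 := H87.deg_pos hχ
  obtain ⟨n, ρ, hρ, rfl⟩ := hχ
  rw [H87.deg_character] at h h0
  exact H8.exists_character_eq_zero ρ (by omega)

/-- If the principal block consists of linear characters, the commutator subgroup is a
`p'`-group. -/
theorem not_dvd_commutator (hM : IsPModular p M)
    (h : ∀ χ ∈ principalBlock M G, charDegree (χ : G → ℂ) = 1) :
    ¬ p ∣ Nat.card (commutator G) := by
  have := H33.isMaximal_of hM
  have hle : commutator G ≤ H34.kerSub (principalBlock M G) := fun g hg =>
    H34.mem_kerSub.2 fun χ hχ => (H6.mem_charKer (H6.irr_isCharacter χ.2)).1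
      (H87.commutator_le_charKer_of_deg_one (H6.irr_isCharacter χ.2) (h χ hχ) hg)
  exact fun hd => H34.not_dvd_card_kerSub hM H33.isPBlock_principalBlock
    (hd.trans (Subgroup.card_dvd_of_le hle))

theorem npc_of_not_dvd_commutator (h : ¬ p ∣ Nat.card (commutator G)) :
    HasNormalPComplement p G ∧ ∀ P : Sylow p G, IsMulCommutative (P : Subgroup G) := by
  constructor
  · refine H4.hasNormalPComplement_of_quotient_coprime h ?_
    letI : CommGroup (G ⧸ commutator G) := inferInstanceAs (CommGroup (Abelianization G))
    exact H4.hasNormalPComplement_of_isNilpotent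
  · intro P
    refine ⟨⟨fun a b => ?_⟩⟩
    have h1 : ⁅(a : G), (b : G)⁆ ∈ commutator G ⊓ (P : Subgroup G) :=
      Subgroup.mem_inf.2
        ⟨Subgroup.commutator_mem_commutator (Subgroup.mem_top _) (Subgroup.mem_top _), by
        rw [commutatorElement_def]
        exact mul_mem (mul_mem (mul_mem a.2 b.2) (inv_mem a.2)) (inv_mem b.2)⟩
    rw [H4.inf_eq_bot_of_not_dvd_card h P.isPGroup', Subgroup.mem_bot,
      commutatorElement_eq_one_iff_mul_comm] at h1
    exact Subtype.ext h1

end H14.Par
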